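import Mathlib
import Cfsg.Agent.Lib.Helper49.RUW.Defs

/-!
# RUW package [ODDAUT]

Every automorphism of odd order of a 2-group `T` of Rudvalis type is trivial.
-/

set_option autoImplicit false

namespace Cfsg.Agent.Lib.Helper25.RUW

open Cfsg.Agent.Lib.Helper49.RUW

open scoped commutatorElement

universe u

/-- An odd-order automorphism of a 2-group that fixes `N` pointwise and moves `x` inside `x N`
fixes `x`. -/
theorem stab_aux {T : Type u} [Group T] [Finite T] (hT : IsPGroup 2 T) (α : MulAut T)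
    (hα : Odd (orderOf α)) (N : Subgroup T) (hN : ∀ n ∈ N, α n = n) (x : T)
    (hx : x⁻¹ * α x ∈ N) : α x = x := by
  have hαx : α x = x * (x⁻¹ * α x) := by group
  have hpow : ∀ k : ℕ, (α ^ k) x = x * (x⁻¹ * α x) ^ k := by
    intro k
    induction k with
    | zero => simp
    | succ k ih =>
      have h0 : x * (x⁻¹ * α x) = α x := by group
      rw [pow_succ', MulAut.mul_apply, ih, map_mul, map_pow, hN _ hx, pow_succ',
        ← mul_assoc x (x⁻¹ * α x) _, h0]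
  have h1 : (x⁻¹ * α x) ^ orderOf α = 1 := by
    have h2 := hpow (orderOf α)
    rw [pow_orderOf_eq_one] at h2
    have h3 : x * 1 = x * (x⁻¹ * α x) ^ orderOf α := by simpa using h2
    exact (mul_left_cancel h3).symm
  obtain ⟨j, hj⟩ := hT (x⁻¹ * α x)
  have hd1 : orderOf (x⁻¹ * α x) ∣ orderOf α := orderOf_dvd_of_pow_eq_one h1
  have hd2 : orderOf (x⁻¹ * α x) ∣ 2 ^ j := orderOf_dvd_of_pow_eq_one hj
  have hcop : Nat.Coprime (orderOf α) (2 ^ j) :=
    Nat.Coprime.pow_right j (Nat.coprime_two_right.mpr hα)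
  have h4 : orderOf (x⁻¹ * α x) = 1 := Nat.eq_one_of_dvd_coprimes hcop hd1 hd2
  rw [orderOf_eq_one_iff] at h4
  rw [hαx, h4, mul_one]

theorem mul_mem_of_card_two {T : Type u} [Group T] [Finite T] (H K : Subgroup T) (hHK : H ≤ K)
    (hc : Nat.card K = 2 * Nat.card H) {a b : T} (ha : a ∈ K) (hb : b ∈ K) (ha' : a ∉ H)
    (hb' : b ∉ H) : a * b ∈ H := by
  have hidx : (H.subgroupOf K).index = 2 := by
    have h1 := Subgroup.card_mul_index (H.subgroupOf K)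
    rw [Nat.card_congr (Subgroup.subgroupOfEquivOfLe hHK).toEquiv, hc] at h1
    have : 0 < Nat.card H := Nat.card_pos
    nlinarith
  have h2 := (Subgroup.mul_mem_iff_of_index_two hidx (a := ⟨a, ha⟩) (b := ⟨b, hb⟩)).mpr
    (by simp [Subgroup.mem_subgroupOf, ha', hb'])
  simpa [Subgroup.mem_subgroupOf] using h2

theorem step_fix {T : Type u} [Group T] [Finite T] (hT : IsPGroup 2 T) (α : MulAut T)
    (hα : Odd (orderOf α)) (H K : Subgroup T) (hHK : H ≤ K) (hc : Nat.card K = 2 * Nat.card H)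
    (hH : ∀ x, α x ∈ H ↔ x ∈ H) (hK : ∀ x, α x ∈ K ↔ x ∈ K) (hfix : ∀ n ∈ H, α n = n) :
    ∀ x ∈ K, α x = x := by
  intro x hx
  apply stab_aux hT α hα H hfix
  by_cases hxH : x ∈ H
  · exact H.mul_mem (H.inv_mem hxH) ((hH x).mpr hxH)
  · apply mul_mem_of_card_two H K hHK hc (K.inv_mem hx) ((hK x).mpr hx)
    · rwa [Subgroup.inv_mem_iff]
    · rwa [hH]

theorem char_mem {T : Type u} [Group T] (H : Subgroup T) [hH : H.Characteristic] (α : MulAut T)
    (x : T) : α x ∈ H ↔ x ∈ H := by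
  have h1 := hH.fixed α
  constructor
  · intro h
    rw [← h1]
    exact h
  · intro h
    rw [← h1] at h
    exact h

/-- **[ODDAUT]** every automorphism of odd order of `T` is trivial. -/
theorem pkgOddAut (h74 : Stmt3174.{u}) (hUcs : PkgUcs.{u}) (hNormCent : PkgNormCent.{u}) :
    PkgOddAut.{u} := by
  intro T _ _ hT hcard h16 W hW hfr hU α hα
  obtain ⟨-, hcomm, -, -, -, -, ⟨hWn, -⟩, -, -⟩ := h74 hT hcard h16 W hW hfr hU
  have hbig : 16 < Nat.card T := lt_of_lt_of_le (by norm_num) hcard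
  obtain ⟨hc1, hc2, hc3⟩ := hUcs hT h16 hbig
  have hmono := Subgroup.upperCentralSeries_mono T
  have hf0 : ∀ n ∈ Subgroup.upperCentralSeries T 0, α n = n := by
    intro n hn
    rw [Subgroup.upperCentralSeries_zero, Subgroup.mem_bot] at hn
    rw [hn, map_one]
  have hc0 : Nat.card ↥(Subgroup.upperCentralSeries T 0) = 1 := by
    rw [Subgroup.upperCentralSeries_zero]; exact Subgroup.card_bot
  have hf1 := step_fix hT α hα _ _ (hmono (Nat.zero_le 1)) (by rw [hc1, hc0])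
    (char_mem _ α) (char_mem _ α) hf0
  have hf2 := step_fix hT α hα _ _ (hmono (by norm_num : 1 ≤ 2)) (by rw [hc2, hc1])
    (char_mem _ α) (char_mem _ α) hf1
  have hf3 := step_fix hT α hα _ _ (hmono (by norm_num : 2 ≤ 3)) (by rw [hc3, hc2])
    (char_mem _ α) (char_mem _ α) hf2
  have hf4 := step_fix hT α hα _ _ (hmono (by norm_num : 3 ≤ 4)) (by rw [h16, hc3])
    (char_mem _ α) (char_mem _ α) hf3
  have hZ34 : Subgroup.upperCentralSeries T 3 ≤ Subgroup.upperCentralSeries T 4 :=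
    hmono (by norm_num : 3 ≤ 4)
  generalize hZ4 : Subgroup.upperCentralSeries T 4 = Z4 at hf4 hZ34
  have hsucc : ∀ y : T, (∀ t : T, y * t * y⁻¹ * t⁻¹ ∈ Subgroup.upperCentralSeries T 3) →
      y ∈ Z4 := by
    intro y hy
    rw [← hZ4]
    exact Subgroup.mem_upperCentralSeries_succ_iff.mpr hy
  have hZ3n : (Subgroup.upperCentralSeries T 3).Normal := inferInstance
  generalize hZ3 : Subgroup.upperCentralSeries T 3 = Z3 at *
  -- Z3 ≤ W
  have hZW : Z3 ≤ W := by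
    rw [← hcomm]; exact Subgroup.map_subtype_le _
  -- (b)
  have hd : ∀ t : T, t⁻¹ * α t ∈ W := by
    intro t
    rw [hW, Subgroup.mem_centralizer_iff]
    intro z hz
    have hz' : z ∈ Z3 := hz
    have h1 : t * z * t⁻¹ ∈ Z3 := hZ3n.conj_mem z hz' t
    have h2 := hf3 _ h1
    have h3 := hf3 z hz'
    rw [map_mul, map_mul, map_inv, h3] at h2
    have h4 : z * (t⁻¹ * α t) = t⁻¹ * (t * z * t⁻¹) * α t := by group
    rw [h4, ← h2]; group
  -- commutators in W lie in Z3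
  have hab : ∀ a ∈ W, ∀ b ∈ W, a * b * a⁻¹ * b⁻¹ ∈ Z3 := by
    intro a ha b hb
    rw [← hcomm]
    refine ⟨⁅(⟨a, ha⟩ : ↥W), ⟨b, hb⟩⁆, ?_, ?_⟩
    · exact Subgroup.commutator_mem_commutator (Subgroup.mem_top _) (Subgroup.mem_top _)
    · simp [commutatorElement_def]
  have hcm : ∀ a ∈ W, ∀ b ∈ W, Commute (QuotientGroup.mk' Z3 a) (QuotientGroup.mk' Z3 b) := by
    intro a ha b hb
    have h1 : QuotientGroup.mk' Z3 (a * b * a⁻¹ * b⁻¹) = 1 :=
      (QuotientGroup.eq_one_iff _).mpr (hab a ha b hb)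
    rw [map_mul, map_mul, map_mul, map_inv, map_inv, mul_inv_eq_one, mul_inv_eq_iff_eq_mul] at h1
    exact h1
  -- the derivation mod Z3
  let δ : ↥W →* T ⧸ Z3 := MonoidHom.mk' (fun u => QuotientGroup.mk' Z3 ((u : T)⁻¹ * α u)) (by
    intro u v
    have e : (((u * v : ↥W) : T))⁻¹ * α ((u * v : ↥W) : T) =
        (v : T)⁻¹ * ((u : T)⁻¹ * α u) * v * ((v : T)⁻¹ * α v) := by
      rw [Subgroup.coe_mul, map_mul]; group
    have h1 := hcm _ (hd u) _ v.2
    show QuotientGroup.mk' Z3 ((((u * v : ↥W) : T))⁻¹ * α ((u * v : ↥W) : T)) = _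
    rw [e, map_mul, map_mul, map_mul, map_inv, mul_assoc (QuotientGroup.mk' Z3 (v : T))⁻¹, h1.eq,
      ← mul_assoc, inv_mul_cancel, one_mul])
  have hδ : ∀ u : ↥W, δ u = QuotientGroup.mk' Z3 ((u : T)⁻¹ * α u) := fun u => rfl
  let M : Subgroup T := W ⊓ (δ.range).comap (QuotientGroup.mk' Z3)
  have hM : ∀ m : T, m ∈ M ↔ m ∈ W ∧ ∃ u : ↥W, δ u = QuotientGroup.mk' Z3 m := by
    intro m
    simp only [M, Subgroup.mem_inf, Subgroup.mem_comap, MonoidHom.mem_range]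
  have hMn : M.Normal := by
    constructor
    intro m hm t
    rw [hM] at hm ⊢
    obtain ⟨hmW, u, hu⟩ := hm
    refine ⟨hWn.conj_mem m hmW t, ⟨t * u * t⁻¹, hWn.conj_mem u u.2 t⟩, ?_⟩
    rw [hδ] at hu ⊢
    have e : (t * (u : T) * t⁻¹)⁻¹ * α (t * (u : T) * t⁻¹) =
        t * ((u : T)⁻¹ * (t⁻¹ * α t) * u * ((u : T)⁻¹ * α u) * (t⁻¹ * α t)⁻¹) * t⁻¹ := by
      simp only [map_mul, map_inv]; group
    have hAB := hcm _ u.2 _ (hd t)
    have hBC := hcm _ (hd t) _ (hd u)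
    show QuotientGroup.mk' Z3 ((t * (u : T) * t⁻¹)⁻¹ * α (t * (u : T) * t⁻¹)) = _
    rw [e]
    simp only [map_mul, map_inv] at hu hAB hBC ⊢
    rw [← hu]
    congr 2
    generalize QuotientGroup.mk' Z3 (u : T) = A at *
    generalize QuotientGroup.mk' Z3 t = Bt at *
    generalize QuotientGroup.mk' Z3 (α t) = Bα at *
    generalize QuotientGroup.mk' Z3 (α (u : T)) = C at *
    calc A⁻¹ * (Bt⁻¹ * Bα) * A * (A⁻¹ * C) * (Bt⁻¹ * Bα)⁻¹
        = A⁻¹ * ((Bt⁻¹ * Bα) * A) * (A⁻¹ * C) * (Bt⁻¹ * Bα)⁻¹ := by group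
      _ = A⁻¹ * (A * (Bt⁻¹ * Bα)) * (A⁻¹ * C) * (Bt⁻¹ * Bα)⁻¹ := by rw [hAB.eq]
      _ = (Bt⁻¹ * Bα) * (A⁻¹ * C) * (Bt⁻¹ * Bα)⁻¹ := by group
      _ = (A⁻¹ * C) * (Bt⁻¹ * Bα) * (Bt⁻¹ * Bα)⁻¹ := by rw [hBC.eq]
      _ = A⁻¹ * C := by group
  have hZM : Z3 ≤ M := by
    intro z hz
    rw [hM]
    refine ⟨hZW hz, 1, ?_⟩
    rw [map_one]
    exact ((QuotientGroup.eq_one_iff z).mpr hz).symm
  -- M = Z3
  have hMZ : ∀ u ∈ W, u⁻¹ * α u ∈ Z3 := by
    intro u hu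
    by_contra hcon
    have hduM : u⁻¹ * α u ∈ M := by
      rw [hM]
      exact ⟨hd u, ⟨u, hu⟩, rfl⟩
    have hne : Z3 ≠ M := by
      intro h
      rw [h] at hcon
      exact hcon hduM
    obtain ⟨y, hyM, hyZ, hy⟩ := hNormCent hT M Z3 hMn hZ3n hZM hne
    apply hyZ
    have hy4 : y ∈ Z4 := by
      apply hsucc
      intro t
      have h1 := hZ3n.conj_mem _ (hy t) y
      have h2 := Z3.inv_mem h1
      have e : (y * cg t y * y⁻¹)⁻¹ = y * t * y⁻¹ * t⁻¹ := by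
        unfold cg; group
      rw [e] at h2
      exact h2
    rw [hM] at hyM
    obtain ⟨hyW, v, hv⟩ := hyM
    rw [hδ] at hv
    have h1 : ((v : T)⁻¹ * α v)⁻¹ * y ∈ Z3 := QuotientGroup.eq.mp hv
    have h2 : (v : T)⁻¹ * α v ∈ Z4 := by
      have h3 := Z4.mul_mem hy4 (Z4.inv_mem (hZ34 h1))
      have e : y * (((v : T)⁻¹ * α v)⁻¹ * y)⁻¹ = (v : T)⁻¹ * α v := by group
      rw [e] at h3
      exact h3
    have h4 := stab_aux hT α hα Z4 hf4 v h2
    rw [h4, inv_mul_cancel, map_one] at hv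
    exact (QuotientGroup.eq_one_iff y).mp hv.symm
  have hfW : ∀ u ∈ W, α u = u := fun u hu => stab_aux hT α hα Z3 hf3 u (hMZ u hu)
  apply MulEquiv.ext
  intro t
  rw [MulAut.one_apply]
  exact stab_aux hT α hα W hfW t (hd t)

end Cfsg.Agent.Lib.Helper25.RUW
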